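import Cfsg.Agent.Blocks.HeightZero.Conjugation
import Cfsg.Agent.Blocks.Covering.Basic
import Cfsg.Agent.Blocks.Defect.Translate
import Cfsg.Agent.S0932
import Cfsg.Agent.S0965
import Cfsg.Agent.Eq.Def_Blocks

/-!
# Fong–Reynolds: induction from the stabiliser of a block of a normal subgroup

For a block `b` of a normal subgroup `N` with stabiliser inside `T`, induction maps the members of a
block of `T` over `b` bijectively onto the members of the induced block.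
-/

set_option autoImplicit false

namespace CfsgLib.FongReynolds

open Cfsg CfsgLib.Blocks CfsgLib.Chars.Induced
open scoped ComplexConjugate

universe u

variable {G : Type u} [Group G] [Fintype G] {N : Subgroup G} [N.Normal] [Fintype N]
  {T : Subgroup G} [Fintype T] {hNT : N ≤ T}

/-- The multiplicity of `θ` in a character of an intermediate group. -/
noncomputable def multOn (hNT : N ≤ T) (ψ : IrrCharacter T) (θ : IrrCharacter N) : ℕ :=
  mult (fun n : N => (ψ : T → ℂ) (Subgroup.inclusion hNT n)) θ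

theorem classInner_ne_zero_iff (ψ : IrrCharacter T) (θ : IrrCharacter N) :
    classInner (fun n : N => (ψ : T → ℂ) ⟨(n : G), hNT n.2⟩) (θ : N → ℂ) ≠ 0 ↔
      multOn hNT ψ θ ≠ 0 := by
  have h : IsCharacter N (fun n : N => (ψ : T → ℂ) (Subgroup.inclusion hNT n)) :=
    CfsgLib.Chars.isCharacter_comp (CfsgLib.Chars.isCharacter_coe ψ) (Subgroup.inclusion hNT)
  show classInner (fun n : N => (ψ : T → ℂ) (Subgroup.inclusion hNT n)) (θ : N → ℂ) ≠ 0 ↔ _
  rw [classInner_eq_mult h, Nat.cast_ne_zero]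
  rfl

/-- A character of `N` as one of `N` inside `T`. -/
noncomputable def liftIrr (hNT : N ≤ T) (θ : IrrCharacter N) : IrrCharacter (N.subgroupOf T) :=
  CfsgLib.Chars.irrEquiv (Subgroup.subgroupOfEquivOfLe hNT).symm θ

theorem liftIrr_bijective : Function.Bijective (liftIrr hNT) :=
  (CfsgLib.Chars.irrEquiv (Subgroup.subgroupOfEquivOfLe hNT).symm).bijective

theorem mult_liftIrr [Fintype (N.subgroupOf T)] (ψ : IrrCharacter T) (θ : IrrCharacter N) :
    mult (fun a : N.subgroupOf T => (ψ : T → ℂ) a) (liftIrr hNT θ) = multOn hNT ψ θ := by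
  simp only [multOn, mult]
  rw [← classInner_comp_equiv (Subgroup.subgroupOfEquivOfLe hNT)
    (fun n : N => (ψ : T → ℂ) (Subgroup.inclusion hNT n))]
  rfl

theorem conjIrr_liftIrr (t : T) (θ : IrrCharacter N) :
    conjIrr t (liftIrr hNT θ) = liftIrr hNT (conjIrr (t : G) θ) := by
  refine Subtype.ext (funext fun a => ?_)
  simp only [conjIrr_coe, liftIrr, conjFun_apply, CfsgLib.Chars.irrEquiv_apply]
  exact congrArg (θ : N → ℂ) (Subtype.ext rfl)

theorem multOn_conj (ψ : IrrCharacter T) (θ : IrrCharacter N) {t : G} (ht : t ∈ T) :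
    multOn hNT ψ (conjIrr t θ) = multOn hNT ψ θ := by
  haveI : Fintype (N.subgroupOf T) := Fintype.ofFinite _
  rw [← mult_liftIrr, ← mult_liftIrr, ← conjIrr_liftIrr ⟨t, ht⟩ θ,
    mult_restrict_conjIrr (CfsgLib.Chars.isClassFunction_coe ψ)]

theorem exists_conj_of_multOn {ψ : IrrCharacter T} {θ η : IrrCharacter N}
    (hθ : multOn hNT ψ θ ≠ 0) (hη : multOn hNT ψ η ≠ 0) :
    ∃ t ∈ T, conjIrr t θ = η := by
  haveI : Fintype (N.subgroupOf T) := Fintype.ofFinite _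
  obtain ⟨t, ht⟩ := mem_conjOrbit_of_mult_ne_zero ψ (liftIrr hNT θ) (liftIrr hNT η)
    (by rwa [mult_liftIrr]) (by rwa [mult_liftIrr])
  exact ⟨t, t.2, liftIrr_bijective.injective ((conjIrr_liftIrr t θ).symm.trans ht)⟩

theorem exists_multOn_ne_zero (hNT : N ≤ T) (ψ : IrrCharacter T) :
    ∃ θ : IrrCharacter N, multOn hNT ψ θ ≠ 0 := by
  haveI : Fintype (N.subgroupOf T) := Fintype.ofFinite _
  obtain ⟨θ', hθ'⟩ := BlocksCover.exists_constituent ψ (N.subgroupOf T)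
  obtain ⟨θ, rfl⟩ := liftIrr_bijective.surjective (f := liftIrr hNT) θ'
  exact ⟨θ, by rwa [BlocksCover.mult_ne_zero_iff, mult_liftIrr] at hθ'⟩

theorem map_one_of_multOn {ψ : IrrCharacter T} {θ : IrrCharacter N} (hθ : multOn hNT ψ θ ≠ 0) :
    (ψ : T → ℂ) 1 = (multOn hNT ψ θ : ℂ) *
      ((inertia N (θ : N → ℂ)).relIndex T : ℂ) * (θ : N → ℂ) 1 := by
  haveI : Fintype (N.subgroupOf T) := Fintype.ofFinite _
  have h := clifford_one ψ (liftIrr hNT θ) (by rwa [mult_liftIrr])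
  have hI : inertia (N.subgroupOf T) (liftIrr hNT θ : N.subgroupOf T → ℂ) =
      (inertia N (θ : N → ℂ)).subgroupOf T := by
    ext t
    rw [Subgroup.mem_subgroupOf, mem_inertia, mem_inertia, ← conjIrr_coe, ← conjIrr_coe,
      Subtype.val_injective.eq_iff, Subtype.val_injective.eq_iff, conjIrr_liftIrr]
    exact liftIrr_bijective.injective.eq_iff
  rw [h, mult_liftIrr, hI]
  simp [liftIrr, Subgroup.relIndex]

/-- A constituent of a character induced from above the inertia group is all of it. -/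
theorem indFun_eq_of_inertia_le {θ : IrrCharacter N} (hT : inertia N (θ : N → ℂ) ≤ T)
    (ψ : IrrCharacter T) (hψ : multOn hNT ψ θ ≠ 0) (χ : IrrCharacter G)
    (hχ : mult (indFun T (ψ : T → ℂ)) χ ≠ 0) :
    indFun T (ψ : T → ℂ) = (χ : G → ℂ) ∧
      mult (fun n : N => (χ : G → ℂ) n) θ = multOn hNT ψ θ := by
  classical
  set f := multOn hNT ψ θ with hfdef
  set a := mult (indFun T (ψ : T → ℂ)) χ with hadef
  set e := mult (fun n : N => (χ : G → ℂ) n) θ with hedef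
  set t := (inertia N (θ : N → ℂ)).index with htdef
  have hΦ := isCharacter_indFun T (CfsgLib.Chars.isCharacter_coe ψ)
  have hle : a * f ≤ e := by
    rw [hadef, mult_indFun_irr, hfdef, multOn]
    exact mult_mul_mult_le_restrict (Subgroup.inclusion hNT)
      (CfsgLib.Chars.isCharacter_restrict (CfsgLib.Chars.isCharacter_coe χ) T) ψ θ
  have he : e ≠ 0 := (lt_of_lt_of_le (Nat.mul_pos (Nat.pos_of_ne_zero hχ)
    (Nat.pos_of_ne_zero hψ)) hle).ne'
  obtain ⟨n, hn, hθ1⟩ := (CfsgLib.Chars.exists_pos_natCast_map_one θ.2)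
  have hχ1 : (χ : G → ℂ) 1 = ((e * t * n : ℕ) : ℂ) := by
    rw [clifford_one χ θ he, hθ1, ← hedef, ← htdef]
    push_cast
    rfl
  have hψ1 : indFun T (ψ : T → ℂ) 1 = ((f * t * n : ℕ) : ℂ) := by
    rw [indFun_one_apply, map_one_of_multOn hψ, hθ1, ← hfdef, htdef,
      ← Subgroup.relIndex_mul_index hT]
    push_cast
    ring
  obtain ⟨s, hmem, hs⟩ := exists_eq_sum_mult hΦ
  have hdeg : ∀ η : IrrCharacter G, ∃ d : ℕ, 0 < d ∧ (η : G → ℂ) 1 = d :=
    fun η => CfsgLib.Chars.exists_pos_natCast_map_one η.2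
  choose d hd0 hd using hdeg
  have hsum : f * t * n = ∑ η ∈ s, mult (indFun T (ψ : T → ℂ)) η * d η := by
    apply Nat.cast_injective (R := ℂ)
    rw [← hψ1]
    conv_lhs => rw [hs]
    simp [Finset.sum_apply, hd]
  have hdχ : d χ = e * t * n := by
    apply Nat.cast_injective (R := ℂ)
    rw [← hd, hχ1]
  have hχs : χ ∈ s := (hmem χ).2 hχ
  rw [← Finset.add_sum_erase s _ hχs, ← hadef, hdχ] at hsum
  have htn : 0 < t * n := Nat.mul_pos (Nat.pos_of_ne_zero Subgroup.index_ne_zero_of_finite) hn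
  have h1 : a * e ≤ f := by
    refine Nat.le_of_mul_le_mul_right ?_ htn
    calc a * e * (t * n) = a * (e * t * n) := by ring
      _ ≤ f * t * n := hsum ▸ Nat.le_add_right _ _
      _ = f * (t * n) := by ring
  have ha1 : a = 1 := by
    by_contra h
    have h2 : 2 ≤ a := by omega
    have h3 : 2 * e ≤ f := le_trans (Nat.mul_le_mul_right e h2) h1
    have h4 : 2 * f ≤ e := le_trans (Nat.mul_le_mul_right f h2) hle
    omega
  have hef : e = f := by
    rw [ha1, one_mul] at h1 hle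
    omega
  refine ⟨?_, hef⟩
  rw [ha1, hef, one_mul] at hsum
  have hrest : ∑ η ∈ s.erase χ, mult (indFun T (ψ : T → ℂ)) η * d η = 0 := by omega
  have hempty : s.erase χ = ∅ := by
    refine Finset.eq_empty_of_forall_notMem fun η hη => ?_
    have := Finset.sum_eq_zero_iff.1 hrest η hη
    exact (Nat.mul_pos (Nat.pos_of_ne_zero ((hmem η).1 (Finset.mem_of_mem_erase hη)))
      (hd0 η)).ne' this
  rw [hs, ← Finset.add_sum_erase s _ hχs, hempty, Finset.sum_empty, add_zero, ← hadef, ha1,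
    Nat.cast_one, one_smul]

theorem isIrrCharacter_indFun {θ : IrrCharacter N} (hT : inertia N (θ : N → ℂ) ≤ T)
    {ψ : IrrCharacter T} (hψ : multOn hNT ψ θ ≠ 0) :
    IsIrrCharacter G (indFun T (ψ : T → ℂ)) := by
  obtain ⟨χ, hχ⟩ := exists_mult_ne_zero (isCharacter_indFun T (CfsgLib.Chars.isCharacter_coe ψ))
    fun h0 => by
      have h1 := congrFun h0 1
      rw [indFun_one_apply, Pi.zero_apply] at h1
      exact mul_ne_zero (Nat.cast_ne_zero.2 Subgroup.index_ne_zero_of_finite)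
        (CfsgLib.Chars.map_one_ne_zero ψ) h1
  rw [(indFun_eq_of_inertia_le hT ψ hψ χ hχ).1]
  exact χ.2

theorem exists_indFun_eq {θ : IrrCharacter N} (hT : inertia N (θ : N → ℂ) ≤ T) (hNT : N ≤ T)
    (χ : IrrCharacter G) (hχ : mult (fun n : N => (χ : G → ℂ) n) θ ≠ 0) :
    ∃ ψ : IrrCharacter T, multOn hNT ψ θ ≠ 0 ∧ indFun T (ψ : T → ℂ) = (χ : G → ℂ) := by
  obtain ⟨ψ, hψ1, hψ2⟩ := exists_constituent_over (Subgroup.inclusion hNT)
    (CfsgLib.Chars.isCharacter_restrict (CfsgLib.Chars.isCharacter_coe χ) T) θ hχ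
  exact ⟨ψ, hψ2, (indFun_eq_of_inertia_le hT ψ hψ2 χ (by rwa [mult_indFun_irr])).1⟩

theorem indFun_injective {θ : IrrCharacter N} (hT : inertia N (θ : N → ℂ) ≤ T)
    {ψ ψ' : IrrCharacter T} (hψ : multOn hNT ψ θ ≠ 0) (hψ' : multOn hNT ψ' θ ≠ 0)
    (h : indFun T (ψ : T → ℂ) = indFun T (ψ' : T → ℂ)) : ψ = ψ' := by
  classical
  by_contra hne
  let χ : IrrCharacter G := ⟨_, isIrrCharacter_indFun hT hψ⟩
  have hm : mult (indFun T (ψ : T → ℂ)) χ = 1 := by
    rw [show indFun T (ψ : T → ℂ) = (χ : G → ℂ) from rfl, mult_irr, if_pos rfl]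
  have hm' : mult (indFun T (ψ' : T → ℂ)) χ = 1 := h ▸ hm
  have e1 := (indFun_eq_of_inertia_le hT ψ hψ χ (by omega)).2
  have e2 := (indFun_eq_of_inertia_le hT ψ' hψ' χ (by omega)).2
  rw [mult_indFun_irr] at hm hm'
  have hc := CfsgLib.Chars.isCharacter_restrict (CfsgLib.Chars.isCharacter_coe χ) T
  obtain ⟨s, hmem, hs⟩ := exists_eq_sum_mult hc
  have hsum := mult_restrict_eq_sum (Subgroup.inclusion hNT) hc hs θ
  have hsub : ({ψ, ψ'} : Finset (IrrCharacter T)) ⊆ s := by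
    intro η hη
    rcases Finset.mem_insert.1 hη with rfl | hη
    · exact (hmem _).2 (by omega)
    · obtain rfl := Finset.mem_singleton.1 hη
      exact (hmem _).2 (by omega)
  have hle := Finset.sum_le_sum_of_subset (f := fun η : IrrCharacter T =>
    mult (fun t : T => (χ : G → ℂ) t) η *
      mult (fun n : N => (η : T → ℂ) (Subgroup.inclusion hNT n)) θ) hsub
  rw [Finset.sum_pair hne, hm, hm', ← hsum, one_mul, one_mul] at hle
  change multOn hNT ψ θ + multOn hNT ψ' θ ≤ mult (fun n : N => (χ : G → ℂ) n) θ at hle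
  omega

omit [N.Normal] [Fintype N] in
/-- The degree of an induced irreducible character. -/
theorem charDegree_of_eq_indFun {χ : IrrCharacter G} {ψ : IrrCharacter T}
    (h : (χ : G → ℂ) = indFun T (ψ : T → ℂ)) :
    charDegree (χ : G → ℂ) = T.index * charDegree (ψ : T → ℂ) := by
  apply Nat.cast_injective (R := ℂ)
  rw [Nat.cast_mul, CfsgLib.Chars.coe_charDegree, CfsgLib.Chars.coe_charDegree, h, indFun_one_apply]

omit [Fintype T] in
/-- A sum over the group, gathered by cosets. -/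
theorem sum_eq_card_mul_sum_quotient [Fintype (G ⧸ T)] (F : G → ℂ)
    (hF : ∀ x, ∀ t ∈ T, F (x * t) = F x) :
    ∑ x : G, F x = (Nat.card T : ℂ) * ∑ q : G ⧸ T, F q.out := by
  classical
  rw [← Finset.sum_fiberwise Finset.univ (fun x : G => (x : G ⧸ T)) F, Finset.mul_sum]
  refine Finset.sum_congr rfl fun q _ => ?_
  have h1 : ∀ x ∈ Finset.univ.filter (fun x : G => (x : G ⧸ T) = q), F x = F q.out := by
    intro x hx
    rw [Finset.mem_filter] at hx
    have h2 : q.out⁻¹ * x ∈ T := QuotientGroup.eq.mp (by rw [QuotientGroup.out_eq', hx.2])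
    conv_lhs => rw [← mul_inv_cancel_left q.out x, hF _ _ h2]
  rw [Finset.sum_congr rfl h1, Finset.sum_const, nsmul_eq_mul]
  congr 2
  rw [← Fintype.card_subtype, ← Nat.card_eq_fintype_card]
  refine Nat.card_congr ⟨fun x => ⟨q.out⁻¹ * x.1, QuotientGroup.eq.mp (by
      rw [QuotientGroup.out_eq', x.2])⟩,
    fun t => ⟨q.out * t.1, by rw [QuotientGroup.mk_mul_of_mem _ t.2, QuotientGroup.out_eq']⟩,
    fun x => Subtype.ext (by simp), fun t => Subtype.ext (by simp)⟩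

section blocks

variable {M : Ideal AlgInt} [M.IsMaximal] {b : Set (IrrCharacter N)}

open HeightZero in
theorem inertia_le (hb : IsPBlock M b) (hTb : blockStab b ≤ T) {θ : IrrCharacter N} (hθ : θ ∈ b) :
    inertia N (θ : N → ℂ) ≤ T := fun x hx =>
  hTb (mem_blockStab_of_conj_mem hb hθ (by
    rwa [show conjIrr x θ = θ from Subtype.ext hx]))

/-- Members of one block of `T` cover `T`-conjugate blocks. -/
theorem exists_over_of_mem {B' : Set (IrrCharacter T)} (hB' : IsPBlock M B') (hb : IsPBlock M b)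
    (hTb : ∀ t ∈ T, t ∈ HeightZero.blockStab b) {ψ ψ' : IrrCharacter T} (hψ : ψ ∈ B')
    (hψ' : ψ' ∈ B') {θ : IrrCharacter N} (hθ : θ ∈ b) (hψθ : multOn hNT ψ θ ≠ 0) :
    ∃ θ' ∈ b, multOn hNT ψ' θ' ≠ 0 := by
  haveI : Fintype (N.subgroupOf T) := Fintype.ofFinite _
  obtain ⟨θ', hθ'⟩ := exists_multOn_ne_zero hNT ψ'
  refine ⟨θ', ?_, hθ'⟩
  have h1 := (BlocksCover.constituent_iff_centralChar ψ (liftIrr hNT θ)).mp
    ((BlocksCover.mult_ne_zero_iff _ _).mpr (by rwa [mult_liftIrr]))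
  have h2 := (BlocksCover.constituent_iff_centralChar ψ' (liftIrr hNT θ')).mp
    ((BlocksCover.mult_ne_zero_iff _ _).mpr (by rwa [mult_liftIrr]))
  obtain ⟨t, ht⟩ := BlocksCover.exists_sameBlock_conj (θ := liftIrr hNT θ') (ψ := liftIrr hNT θ)
    fun n => by
      rw [← h1 n, ← h2 n]
      exact sameBlock_of_mem hB' hψ' hψ _
  rw [conjIrr_liftIrr, liftIrr, liftIrr, sameBlock_irrEquiv_iff] at ht
  have hmem : conjIrr (t : G) θ ∈ b :=
    (HeightZero.mem_blockStab.1 (hTb t t.2) θ).2 hθ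
  exact mem_of_sameBlock hb hmem (fun n => Congr.symm (ht n))

/-- The block of `G` attached to a block of `T` over `b`. -/
theorem mem_blockOf_iff (hb : IsPBlock M b) (hTb : ∀ g, g ∈ T ↔ g ∈ HeightZero.blockStab b)
    {B' : Set (IrrCharacter T)} (hB' : IsPBlock M B') {ψ₀ : IrrCharacter T} (hψ₀ : ψ₀ ∈ B')
    {θ : IrrCharacter N} (hθ : θ ∈ b) (hψθ : multOn hNT ψ₀ θ ≠ 0) {χ₀ : IrrCharacter G}
    (hχ₀ : (χ₀ : G → ℂ) = indFun T (ψ₀ : T → ℂ)) :
    IsInducedBlock M T B' (blockOf M (χ₀ : G → ℂ)) ∧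
      (∀ ψ ∈ B', ∀ ψ' ∈ B', indFun T (ψ : T → ℂ) = indFun T (ψ' : T → ℂ) → ψ = ψ') ∧
      (∀ ψ ∈ B', IsIrrCharacter G (indFun T (ψ : T → ℂ))) ∧
      ∀ χ : IrrCharacter G, χ ∈ blockOf M (χ₀ : G → ℂ) ↔
        ∃ ψ ∈ B', (χ : G → ℂ) = indFun T (ψ : T → ℂ) := by
  classical
  have hle : HeightZero.blockStab b ≤ T := fun g hg => (hTb g).2 hg
  have hover : ∀ ψ ∈ B', ∃ θ' ∈ b, multOn hNT ψ θ' ≠ 0 := fun ψ hψ =>
    exists_over_of_mem hB' hb (fun t ht => (hTb t).1 ht) hψ₀ hψ hθ hψθ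
  have hirr : ∀ ψ ∈ B', IsIrrCharacter G (indFun T (ψ : T → ℂ)) := fun ψ hψ => by
    obtain ⟨θ', h1, h2⟩ := hover ψ hψ
    exact isIrrCharacter_indFun (inertia_le hb hle h1) h2
  have hinj : ∀ ψ ∈ B', ∀ ψ' ∈ B', indFun T (ψ : T → ℂ) = indFun T (ψ' : T → ℂ) → ψ = ψ' := by
    intro ψ hψ ψ' hψ' h
    obtain ⟨θ₁, h1, h2⟩ := hover ψ hψ
    obtain ⟨θ₂, h3, h4⟩ := hover ψ' hψ'
    have hI₁ := inertia_le hb hle h1
    have hI₂ := inertia_le hb hle h3
    let χ : IrrCharacter G := ⟨_, isIrrCharacter_indFun hI₁ h2⟩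
    have hm : mult (indFun T (ψ : T → ℂ)) χ = 1 := by
      rw [show indFun T (ψ : T → ℂ) = (χ : G → ℂ) from rfl, mult_irr, if_pos rfl]
    have e1 := (indFun_eq_of_inertia_le hI₁ ψ h2 χ (by omega)).2
    have e2 := (indFun_eq_of_inertia_le hI₂ ψ' h4 χ (by rw [← h]; omega)).2
    obtain ⟨x, hx⟩ := mem_conjOrbit_of_mult_ne_zero χ θ₁ θ₂ (by omega) (by omega)
    have hxT : x ∈ T := hle (HeightZero.mem_blockStab_of_conj_mem hb h1 (by
      rw [show conjIrr x θ₁ = θ₂ from hx]; exact h3))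
    refine indFun_injective hI₁ h2 ?_ h
    rw [← multOn_conj ψ' θ₁ hxT, show conjIrr x θ₁ = θ₂ from hx]
    exact h4
  have hcong : ∀ ξ ∈ B', ∀ g : G, Congr M (inducedCentralChar T (ξ : T → ℂ) g)
      (inducedCentralChar T (ψ₀ : T → ℂ) g) := by
    intro ξ hξ g
    let a : T → ℂ := fun m => if IsConj g (m : G) then 1 else 0
    have hz : ofFun a ∈ centerO M T := by
      refine ⟨fun m k => ?_, fun m => ?_⟩
      · simp only [coeff_ofFun, a]
        refine if_congr ⟨fun hc => hc.trans ?_, fun hc => hc.trans ?_⟩ rfl rfl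
        · exact (isConj_iff.2 ⟨(k : G), by simp⟩).symm
        · exact isConj_iff.2 ⟨(k : G), by simp⟩
      · show MemLocalRing M (a m)
        simp only [a]
        split_ifs
        exacts [(localRing M).one_mem, (localRing M).zero_mem]
    have key : ∀ φ : IrrCharacter T, inducedCentralChar T (φ : T → ℂ) g =
        omega (φ : T → ℂ) (ofFun a) := fun φ => by
      rw [BlocksCover.inducedCentralChar_eq_sum, omega_ofFun]
      exact Finset.sum_congr rfl fun m _ => by simp only [a]; split_ifs <;> simp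
    rw [key, key]
    exact congr_omega_of_sameBlock hz (sameBlock_of_mem hB' hξ hψ₀)
  have hind : ∀ ψ : IrrCharacter T, ∀ g : G,
      inducedCentralChar T (ψ : T → ℂ) g = centralChar (indFun T (ψ : T → ℂ)) g := fun ψ g =>
    Cfsg.Agent.S0932.result T (ψ : T → ℂ) (CfsgLib.Chars.isCharacter_coe ψ) g
  have hB : IsPBlock M (blockOf M (χ₀ : G → ℂ)) := ⟨χ₀, rfl⟩
  refine ⟨⟨hB', hB, fun ξ hξ χ hχ g => ?_⟩, hinj, hirr, fun χ => ⟨fun hχ => ?_, ?_⟩⟩
  · have h1 : Congr M (inducedCentralChar T (ξ : T → ℂ) g) (centralChar (χ₀ : G → ℂ) g) := by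
      rw [hχ₀, ← hind]
      exact hcong ξ hξ g
    exact h1.trans (sameBlock_of_mem hB (self_mem_blockOf χ₀) hχ g)
  · set A : Set (IrrCharacter G) := {χ | ∃ ψ ∈ B', (χ : G → ℂ) = indFun T (ψ : T → ℂ)} with hA
    refine blockOf_subset_of_local (A := A) (fun g => ?_) ⟨ψ₀, hψ₀, hχ₀⟩ hχ
    haveI : Fintype (G ⧸ T) := Fintype.ofFinite _
    set I : IrrCharacter T → IrrCharacter G := fun ψ =>
      if h : IsIrrCharacter G (indFun T (ψ : T → ℂ)) then ⟨_, h⟩ else χ₀ with hI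
    have hIv : ∀ ψ ∈ B', (I ψ : G → ℂ) = indFun T (ψ : T → ℂ) := fun ψ hψ => by
      simp [hI, hirr ψ hψ]
    have hAeq : A = I '' B' := by
      ext χ
      constructor
      · rintro ⟨ψ, hψ, h⟩
        exact ⟨ψ, hψ, Subtype.ext (by rw [hIv ψ hψ, h])⟩
      · rintro ⟨ψ, hψ, rfl⟩
        exact ⟨ψ, hψ, hIv ψ hψ⟩
    have hIinj : Set.InjOn I B' := fun ψ hψ ψ' hψ' h =>
      hinj ψ hψ ψ' hψ' (by rw [← hIv ψ hψ, ← hIv ψ' hψ', h])
    set F : G → ℂ := fun x => extendByZero T (blockCoeff B') (x⁻¹ * g * x) with hF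
    have hFT : ∀ x, ∀ t ∈ T, F (x * t) = F x := by
      intro x t ht
      simp only [hF, mul_inv_rev, mul_assoc]
      rw [show t⁻¹ * (x⁻¹ * (g * (x * t))) = t⁻¹ * (x⁻¹ * g * x) * t by group,
        show x⁻¹ * (g * x) = x⁻¹ * g * x by group]
      by_cases hy : x⁻¹ * g * x ∈ T
      · rw [extendByZero_mem _ hy, extendByZero_mem _ (T.mul_mem (T.mul_mem (T.inv_mem ht) hy) ht)]
        rw [show (⟨t⁻¹ * (x⁻¹ * g * x) * t, T.mul_mem (T.mul_mem (T.inv_mem ht) hy) ht⟩ : T) =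
          (⟨t, ht⟩ : T)⁻¹ * ⟨x⁻¹ * g * x, hy⟩ * ((⟨t, ht⟩ : T)⁻¹)⁻¹ from Subtype.ext (by simp)]
        exact (setIdem_mem_centerO hB').1 _ _
      · rw [extendByZero_notMem _ hy, extendByZero_notMem _ fun h => hy (by
          simpa [mul_assoc] using T.mul_mem (T.mul_mem ht h) (T.inv_mem ht))]
    have hco : blockCoeff A g = ∑ q : G ⧸ T, F q.out := by
      have h1 : blockCoeff A g = (Nat.card G : ℂ)⁻¹ * ∑ ψ ∈ B'.toFinite.toFinset,
          ((T.index : ℂ) * (ψ : T → ℂ) 1) * (starRingEnd ℂ) (indFun T (ψ : T → ℂ) g) := by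
        rw [blockCoeff, hAeq, finsum_mem_image hIinj,
          finsum_mem_eq_finite_toFinset_sum _ B'.toFinite]
        congr 1
        refine Finset.sum_congr rfl fun ψ hψ => ?_
        rw [hIv ψ ((Set.Finite.mem_toFinset _).mp hψ), indFun_one_apply]
      have h2 : ∀ x : G, F x = (Nat.card T : ℂ)⁻¹ * ∑ ψ ∈ B'.toFinite.toFinset,
          (ψ : T → ℂ) 1 * (starRingEnd ℂ) (extendByZero T (ψ : T → ℂ) (x⁻¹ * g * x)) := by
        intro x
        by_cases hy : x⁻¹ * g * x ∈ T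
        · simp only [hF, extendByZero_mem _ hy, blockCoeff]
          rw [finsum_mem_eq_finite_toFinset_sum _ B'.toFinite]
        · simp only [hF, extendByZero_notMem _ hy, map_zero, mul_zero, Finset.sum_const_zero]
      have hT0 : (Nat.card T : ℂ) ≠ 0 := Nat.cast_ne_zero.2 Nat.card_pos.ne'
      have hi0 : (T.index : ℂ) ≠ 0 := Nat.cast_ne_zero.2 Subgroup.index_ne_zero_of_finite
      apply mul_left_cancel₀ hT0
      rw [← sum_eq_card_mul_sum_quotient F hFT, h1, ← T.card_mul_index, Nat.cast_mul]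
      simp only [h2, indFun, map_mul, map_inv₀, map_natCast, map_sum, Finset.mul_sum]
      rw [Finset.sum_comm]
      refine Finset.sum_congr rfl fun x _ => Finset.sum_congr rfl fun ψ _ => ?_
      field_simp
    rw [hco]
    refine Subring.sum_mem (localRing M) fun q _ => ?_
    show MemLocalRing M (extendByZero T (blockCoeff B') _)
    by_cases hy : q.out⁻¹ * g * q.out ∈ T
    · rw [extendByZero_mem _ hy]; exact memLocalRing_blockCoeff hB' _
    · rw [extendByZero_notMem _ hy]; exact (localRing M).zero_mem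
  · rintro ⟨ψ, hψ, h⟩
    refine mem_of_sameBlock hB (self_mem_blockOf χ₀) fun g => ?_
    rw [h, hχ₀, ← hind, ← hind]
    exact (hcong ψ hψ g).symm

/-- Fong–Reynolds, all the blocks at once. -/
theorem exists_induced (hb : IsPBlock M b) (hTb : ∀ g, g ∈ T ↔ g ∈ HeightZero.blockStab b)
    {B' : Set (IrrCharacter T)} (hB' : IsPBlock M B')
    (hcov : ∃ ψ ∈ B', ∃ θ ∈ b, multOn hNT ψ θ ≠ 0) :
    ∃ B : Set (IrrCharacter G), IsInducedBlock M T B' B ∧
      (∃ χ ∈ B, ∃ θ ∈ b, mult (fun n : N => (χ : G → ℂ) n) θ ≠ 0) ∧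
      (∀ ψ ∈ B', ∀ ψ' ∈ B', indFun T (ψ : T → ℂ) = indFun T (ψ' : T → ℂ) → ψ = ψ') ∧
      (∀ ψ ∈ B', IsIrrCharacter G (indFun T (ψ : T → ℂ))) ∧
      ∀ χ : IrrCharacter G, χ ∈ B ↔ ∃ ψ ∈ B', (χ : G → ℂ) = indFun T (ψ : T → ℂ) := by
  obtain ⟨ψ, hψ, θ, hθ, h⟩ := hcov
  have hI := inertia_le hb (fun g hg => (hTb g).2 hg) hθ
  let χ : IrrCharacter G := ⟨_, isIrrCharacter_indFun hI h⟩
  obtain ⟨h1, h2, h3, h4⟩ := mem_blockOf_iff hb hTb hB' hψ hθ h (χ₀ := χ) rfl
  refine ⟨_, h1, ⟨χ, self_mem_blockOf χ, θ, hθ, ?_⟩, h2, h3, h4⟩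
  obtain ⟨η, hη⟩ := exists_mult_ne_zero (isCharacter_indFun T (CfsgLib.Chars.isCharacter_coe ψ))
    fun h0 => CfsgLib.Chars.map_one_ne_zero χ (congrFun h0 1)
  have h5 := indFun_eq_of_inertia_le hI ψ h η hη
  rw [show χ = η from Subtype.ext h5.1, h5.2]
  exact h

omit [N.Normal] [Fintype N] [Fintype T] in
/-- The induced block is unique. -/
theorem induced_unique {B' : Set (IrrCharacter T)} {B B₁ : Set (IrrCharacter G)}
    (h : IsInducedBlock M T B' B) (h₁ : IsInducedBlock M T B' B₁) : B = B₁ := by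
  obtain ⟨ξ, hξ⟩ := nonempty_of_isPBlock h.1
  obtain ⟨χ, hχ⟩ := nonempty_of_isPBlock h.2.1
  obtain ⟨χ₁, hχ₁⟩ := nonempty_of_isPBlock h₁.2.1
  rw [eq_blockOf_of_mem h.2.1 hχ, eq_blockOf_of_mem h₁.2.1 hχ₁]
  exact blockOf_eq_of_sameBlock fun g =>
    (Congr.symm (h.2.2 ξ hξ χ hχ g)).trans (h₁.2.2 ξ hξ χ₁ hχ₁ g)

end blocks

end CfsgLib.FongReynolds
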